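import Cfsg.Agent.H860.JM.Geom
import Mathlib.GroupTheory.PGroup
import Mathlib.Data.Set.Finite.Lattice
import Mathlib.Data.Set.Card
import Mathlib.Data.Set.Finite.Lemmas
import Mathlib.Tactic.Group

/-!
# The 2-local geometry of `J4`: case A (helper546, for S5580)

`caseA` : if `E = Ω₁(Z(O₂(M)))` is pure 2A then `M` is in one of the four 2-local subgroups.
-/

set_option autoImplicit false
set_option linter.unusedSectionVars false

namespace Cfsg.Agent.H546.JM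

open Cfsg.Agent.H860.JM Subgroup

variable {G : Type*} [Group G] {Γ : Geom G}

theorem mem_cj {g x : G} {H : Subgroup G} : x ∈ cj g H ↔ g⁻¹ * x * g ∈ H := by
  constructor
  · rintro ⟨y, hy, rfl⟩
    have h : g⁻¹ * (MulAut.conj g).toMonoidHom y * g = y := by
      show g⁻¹ * (g * y * g⁻¹) * g = y
      group
    rw [h]
    exact hy
  · intro h
    refine ⟨_, h, ?_⟩
    show g * (g⁻¹ * x * g) * g⁻¹ = x
    group

theorem conj_mem_cj {g x : G} {H : Subgroup G} (h : x ∈ H) : g * x * g⁻¹ ∈ cj g H := ⟨x, h, rfl⟩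

/-- an element commuting with `g` -/
theorem mem_cj_of_comm {g x : G} {H : Subgroup G} (h : x ∈ H) (hc : g * x = x * g) : x ∈ cj g H := by
  have h1 := conj_mem_cj (g := g) h
  rwa [hc, mul_inv_cancel_right] at h1

theorem mem_normalizer_of_cj {g : G} {H : Subgroup G} (h : cj g H = H) : g ∈ normalizer (H : Set G) := by
  rw [mem_normalizer_iff]
  intro x
  constructor
  · intro hx
    have h1 := conj_mem_cj (g := g) hx
    rwa [h] at h1
  · intro hx
    have h1 : g * x * g⁻¹ ∈ cj g H := by rw [h]; exact hx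
    rw [mem_cj] at h1
    have h2 : g⁻¹ * (g * x * g⁻¹) * g = x := by group
    rwa [h2] at h1

theorem cj_of_mem_normalizer {g : G} {H : Subgroup G} (h : g ∈ normalizer (H : Set G)) : cj g H = H := by
  rw [mem_normalizer_iff] at h
  ext x
  rw [mem_cj, h]
  have h2 : g * (g⁻¹ * x * g) * g⁻¹ = x := by group
  rw [h2]

theorem El.inv_eq {E : Subgroup G} (h : El E) {a : G} (ha : a ∈ E) : a⁻¹ = a :=
  inv_eq_of_mul_eq_one_left (h.sq a ha)

/-- `M` normalizes `E` -/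
theorem conj_mem {M E : Subgroup G} (h : M ≤ normalizer (E : Set G)) {m u : G} (hm : m ∈ M) (hu : u ∈ E) :
    m * u * m⁻¹ ∈ E := (mem_normalizer_iff.1 (h hm) u).1 hu

theorem TyA.symm {z w : G} (h : TyA Γ z w) : TyA Γ w z := by
  obtain ⟨D, hD, h1, h2⟩ := h
  exact ⟨D, hD, h2, h1⟩

theorem TyA.conj (f1 : F1 Γ) {z w : G} (h : TyA Γ z w) (g : G) : TyA Γ (g * z * g⁻¹) (g * w * g⁻¹) := by
  obtain ⟨D, hD, h1, h2⟩ := h
  exact ⟨cj g D, f1.Ln_conj g D hD, conj_mem_cj h1, conj_mem_cj h2⟩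

section

variable (h : Facts Γ) {M Q E : Subgroup G} (hl : Loc M Q E) (hE : ∀ u ∈ E, u ≠ 1 → Γ.A u)
include h

/-- two points with two different nontrivial elements in common -/
theorem line_of_two {P P' : Subgroup G} (hP : Γ.Pt P) (hP' : Γ.Pt P') (hne : P ≠ P') {u v : G} (hu : u ≠ 1)
    (hv : v ≠ 1) (huv : u ≠ v) (u1 : u ∈ P) (u2 : u ∈ P') (v1 : v ∈ P) (v2 : v ∈ P') : Γ.Ln (P ⊓ P') := by
  rcases h.f5 P P' hP hP' hne with h1 | ⟨z, -, hz⟩ | h1
  · exfalso
    have h2 : u ∈ P ⊓ P' := ⟨u1, u2⟩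
    rw [h1, mem_bot] at h2
    exact hu h2
  · exfalso
    rcases (hz u).1 ⟨u1, u2⟩ with h2 | h2
    · exact hu h2
    · rcases (hz v).1 ⟨v1, v2⟩ with h3 | h3
      · exact hv h3
      · exact huv (h2.trans h3.symm)
  · exact h1

include hl hE in
theorem mul_ne_one {u v : G} (hu : u ∈ E) (huv : u ≠ v) : u * v ≠ 1 := by
  intro h1
  apply huv
  rw [mul_eq_one_iff_eq_inv] at h1
  rw [← El.inv_eq hl.el hu, h1, inv_inv]

include hl hE in
/-- elements of `E ⊓ P` are in `F_w` -/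
theorem mem_Fs {P : Subgroup G} {u w : G} (hu : u ∈ E) (huP : u ∈ P) (hw : w ∈ E) (hwP : w ∉ P) :
    u ∈ Fs Γ P w := by
  refine ⟨huP, hl.el.comm u hu w hw, ?_⟩
  by_cases h1 : u = 1
  · exact Or.inl h1
  · right
    refine ⟨hE u hu h1, hE (u * w) (E.mul_mem hu hw) (mul_ne_one h hl hE hu ?_)⟩
    rintro rfl
    exact hwP huP

include hl hE in
theorem act {P : Subgroup G} {w : G} (hn : E ≤ normalizer (P : Set G)) (hw : w ∈ E) (hwP : w ∉ P) :
    Act Γ P w :=
  ⟨hn hw, hwP, hE w hw (fun h1 => hwP (h1 ▸ P.one_mem))⟩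

include hl hE in
/-- A1: a pair of type b -/
theorem caseA1 [Finite G] (hno : ∀ P, Γ.Pt P → ¬ E ≤ P) {b b' : G} (hb : b ∈ E) (hb' : b' ∈ E) (hb1 : b ≠ 1)
    (hb1' : b' ≠ 1) (hbb : b ≠ b') (hty : ¬ TyA Γ b b') : Good Γ M := by
  have f1 := h.f1
  obtain ⟨P, hP, hbP, hbP'⟩ := h.f7 b b' (hE b hb hb1) (hE b' hb' hb1') (hl.el.comm b hb b' hb')
    (hE _ (E.mul_mem hb hb') (mul_ne_one h hl hE hb hbb))
  have huniq : ∀ P', Γ.Pt P' → b ∈ P' → b' ∈ P' → P' = P := by
    intro P' hP' h1 h2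
    by_contra hne
    exact hty ⟨_, line_of_two h hP' hP hne hb1 hb1' hbb h1 hbP h2 hbP', ⟨h1, hbP⟩, ⟨h2, hbP'⟩⟩
  have hcomm : ∀ y : G, y * b = b * y → y * b' = b' * y → y ∈ normalizer (P : Set G) := by
    intro y h1 h2
    exact mem_normalizer_of_cj (huniq _ (f1.Pt_conj y P hP) (mem_cj_of_comm hbP h1) (mem_cj_of_comm hbP' h2))
  have hEN : E ≤ normalizer (P : Set G) := fun e he => hcomm e (hl.el.comm e he b hb) (hl.el.comm e he b' hb')
  have hPel := h.f3.el P hP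
  -- kind B
  have hKB : ∀ e ∈ E, e ∉ P → KB Γ P e := by
    intro e he heP
    rcases h.f9.kind P e hP (act h hl hE hEN he heP) with hk | hk
    · exfalso
      obtain ⟨P', hP', h1, h2, h3⟩ := hk.pt b (mem_Fs h hl hE hb hbP he heP) b' (mem_Fs h hl hE hb' hbP' he heP)
      exact heP ((huniq P' hP' h1 h2) ▸ h3)
    · exact hk
  -- the elements `x_e`
  have hx : ∀ e ∈ E, e ∉ P → ∃ x ∈ E, IsX Γ P e x ∧ (∀ y, IsX Γ P e y → y = x) ∧ ∀ v ∈ Fs Γ P e, TyA Γ x v := by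
    intro e he heP
    obtain ⟨x, hx, hu, ht⟩ := (hKB e he heP).ex
    refine ⟨x, hl.mem x (hPel.sq x hx.mem.1) ?_, hx, hu, ht⟩
    intro q hq
    have hqe : ∀ u ∈ E, q * u * q⁻¹ = u := by
      intro u hu'
      rw [hl.cent q hq u hu', mul_inv_cancel_right]
    have hqP : q ∈ normalizer (P : Set G) := hcomm q (hl.cent q hq b hb) (hl.cent q hq b' hb')
    have h1 : IsX Γ P e (q * x * q⁻¹) := by
      refine ⟨⟨(mem_normalizer_iff.1 hqP x).1 hx.mem.1, ?_, ?_⟩, ?_, ?_⟩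
      · calc q * x * q⁻¹ * e = q * x * q⁻¹ * (q * e * q⁻¹) := by rw [hqe e he]
          _ = q * (x * e) * q⁻¹ := by group
          _ = q * (e * x) * q⁻¹ := by rw [hx.mem.2.1]
          _ = (q * e * q⁻¹) * (q * x * q⁻¹) := by group
          _ = e * (q * x * q⁻¹) := by rw [hqe e he]
      · right
        obtain ⟨a1, a2⟩ := hx.mem.2.2.resolve_left hx.ne
        refine ⟨f1.A_conj q x a1, ?_⟩
        have h2 : q * x * q⁻¹ * e = q * (x * e) * q⁻¹ := by
          calc q * x * q⁻¹ * e = q * x * q⁻¹ * (q * e * q⁻¹) := by rw [hqe e he]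
            _ = q * (x * e) * q⁻¹ := by group
        rw [h2]
        exact f1.A_conj q _ a2
      · intro h2
        apply hx.ne
        have h3 : x = q⁻¹ * (q * x * q⁻¹) * q := by group
        rw [h3, h2, mul_one, inv_mul_cancel]
      · have h2 := TyA.conj f1 hx.tyA q
        rwa [hqe e he] at h2
    have h2 := hu _ h1
    exact mul_inv_eq_iff_eq_mul.1 h2
  obtain ⟨e₀, he₀, he₀P⟩ : ∃ e ∈ E, e ∉ P := by
    by_contra hcon
    push Not at hcon
    exact hno P hP hcon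
  obtain ⟨x, hxE, hx0, hxu, hxt⟩ := hx e₀ he₀ he₀P
  -- the elements `x_e` are equal
  have hall : ∀ e ∈ E, e ∉ P → IsX Γ P e x := by
    intro e he heP
    obtain ⟨x', hxE', hx', hxu', -⟩ := hx e he heP
    by_cases hee : e₀ * e ∈ P
    · have h1 : e₀⁻¹ * e ∈ P := by rwa [El.inv_eq hl.el he₀]
      have h2 := h.f9.x_eq P e₀ e x x' hP (hKB e₀ he₀ he₀P) (hKB e he heP) h1 hx0 hx'
      rw [h2]
      exact hx'
    · have heE := E.mul_mem he₀ he
      obtain ⟨x'', hxE'', hx'', -, -⟩ := hx (e₀ * e) heE hee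
      have h2 := h.f11 P E hP hl.el hE hEN b b' hb hb' hbP hbP' hb1 hb1' hbb hty e₀ e he₀ he he₀P heP hee
        (hKB e₀ he₀ he₀P) (hKB e he heP) (hKB _ heE hee) x x' x'' hx0 hx' hx'' hxE hxE' hxE''
      rw [h2]
      exact hx'
  have hxP : x ∈ P := hx0.mem.1
  have hty_all : ∀ u ∈ E, TyA Γ x u := by
    intro u hu
    by_cases huP : u ∈ P
    · exact hxt u (mem_Fs h hl hE hu huP he₀ he₀P)
    · exact (hall u hu huP).tyA
  have hx_uniq : ∀ x' ∈ E, x' ≠ 1 → (∀ u ∈ E, TyA Γ x' u) → x' = x := by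
    intro x' hx'E hx'1 hx't
    by_cases hx'P : x' ∈ P
    · exact hxu x' ⟨mem_Fs h hl hE hx'E hx'P he₀ he₀P, hx'1, hx't e₀ he₀⟩
    · exfalso
      obtain ⟨y, -, -, hyu, -⟩ := hx x' hx'E hx'P
      have h1 : b = y := hyu b ⟨mem_Fs h hl hE hb hbP hx'E hx'P, hb1, TyA.symm (hx't b hb)⟩
      have h2 : b' = y := hyu b' ⟨mem_Fs h hl hE hb' hbP' hx'E hx'P, hb1', TyA.symm (hx't b' hb')⟩
      exact hbb (h1.trans h2.symm)
  refine Or.inl ⟨x, hE x hxE hx0.ne, fun m hm => ?_⟩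
  rw [mem_centralizer_singleton_iff]
  have h1 : m * x * m⁻¹ = x := by
    refine hx_uniq _ (conj_mem hl.normE hm hxE) ?_ fun u hu => ?_
    · intro h2
      apply hx0.ne
      have h3 : x = m⁻¹ * (m * x * m⁻¹) * m := by group
      rw [h3, h2, mul_one, inv_mul_cancel]
    · have h2 : m⁻¹ * u * m ∈ E := by
        have h3 := conj_mem hl.normE (M.inv_mem hm) hu
        rwa [inv_inv] at h3
      have h3 := TyA.conj f1 (hty_all _ h2) m
      have h4 : m * (m⁻¹ * u * m) * m⁻¹ = u := by group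
      rwa [h4] at h3
  exact mul_inv_eq_iff_eq_mul.1 h1

/-- a subgroup of exponent two with two different nontrivial elements has at least four elements -/
theorem four_le [Finite G] {K : Subgroup G} (hK : El K) {u v : G} (hu : u ∈ K) (hv : v ∈ K) (hu1 : u ≠ 1)
    (hv1 : v ≠ 1) (huv : u ≠ v) : 4 ≤ Nat.card K := by
  have h2 : 2 ∣ Nat.card K := by
    have h3 : orderOf (⟨u, hu⟩ : K) = 2 := by
      rw [Subgroup.orderOf_mk]
      exact orderOf_eq_prime (by rw [pow_two]; exact hK.sq u hu) hu1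
    rw [← h3]
    exact orderOf_dvd_natCard _
  have h3 : 3 ≤ Nat.card K := by
    let f : Fin 3 → K := ![1, ⟨u, hu⟩, ⟨v, hv⟩]
    have hf : Function.Injective f := by
      intro i j hij
      have hij' := congrArg Subtype.val hij
      fin_cases i <;> fin_cases j <;> simp [f] at hij' ⊢
      · exact hu1 hij'.symm
      · exact hv1 hij'.symm
      · exact hu1 hij'
      · exact huv hij'
      · exact hv1 hij'
      · exact huv hij'.symm
    have h4 := Nat.card_le_card_of_injective f hf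
    rwa [Nat.card_eq_fintype_card, Fintype.card_fin] at h4
  omega

include hl hE in
/-- a point containing `u`, `v` and normalized by `E` -/
theorem exists_start [Finite G] {u v : G} (hu : u ∈ E) (hv : v ∈ E) (hu1 : u ≠ 1) (hv1 : v ≠ 1) (huv : u ≠ v)
    (hty : TyA Γ u v) : ∃ P, Γ.Pt P ∧ E ≤ normalizer (P : Set G) ∧ u ∈ P ∧ v ∈ P := by
  have f1 := h.f1
  obtain ⟨D, hD, huD, hvD⟩ := hty
  have hED : ∀ e ∈ E, cj e D = D := fun e he =>
    h.f6.uniq _ _ (f1.Ln_conj e D hD) hD u v hu1 hv1 huv (mem_cj_of_comm huD (hl.el.comm e he u hu))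
      (mem_cj_of_comm hvD (hl.el.comm e he v hv)) huD hvD
  let T : Type _ := {P : Subgroup G // Γ.Pt P ∧ D ≤ P}
  have hT : Nat.card T = 5 := h.f6.five D hD
  have : Finite T := Nat.finite_of_card_ne_zero (by rw [hT]; norm_num)
  let act : MulAction E T :=
    { smul := fun e P => ⟨cj (e : G) P.1, f1.Pt_conj _ _ P.2.1,
        (hED e e.2).symm.le.trans (Subgroup.map_mono P.2.2)⟩
      one_smul := fun P => by
        apply Subtype.ext
        show cj ((1 : E) : G) P.1 = P.1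
        ext x
        rw [mem_cj]
        simp
      mul_smul := fun a b P => by
        apply Subtype.ext
        show cj ((a * b : E) : G) P.1 = cj (a : G) (cj (b : G) P.1)
        ext x
        rw [mem_cj, mem_cj, mem_cj]
        have h1 : ((a * b : E) : G)⁻¹ * x * ((a * b : E) : G) = (b : G)⁻¹ * ((a : G)⁻¹ * x * a) * b := by
          push_cast
          group
        rw [h1] }
  have hEp : IsPGroup 2 E := hl.pgroup.to_le hl.E_le
  have : Fact (Nat.Prime 2) := ⟨Nat.prime_two⟩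
  obtain ⟨P, hP⟩ := hEp.nonempty_fixed_point_of_prime_not_dvd_card T (by rw [hT]; norm_num)
  refine ⟨P.1, P.2.1, fun e he => mem_normalizer_of_cj ?_, P.2.2 huD, P.2.2 hvD⟩
  have h1 := (MulAction.mem_fixedPoints.1 hP) ⟨e, he⟩
  exact congrArg Subtype.val h1

include hl hE in
/-- A2: all pairs are of type a -/
theorem caseA2 [Finite G] (hno : ∀ P, Γ.Pt P → ¬ E ≤ P)
    (hty : ∀ u ∈ E, ∀ v ∈ E, u ≠ 1 → v ≠ 1 → u ≠ v → TyA Γ u v) : Good Γ M := by
  classical
  have f1 := h.f1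
  -- two different elements
  obtain ⟨u, hu, hu1⟩ : ∃ u ∈ E, u ≠ 1 := by
    by_contra hcon
    push Not at hcon
    exact hl.E_ne ((Subgroup.eq_bot_iff_forall E).2 hcon)
  obtain ⟨P₁, hP₁, huP₁⟩ := h.f3.exA u (hE u hu hu1)
  obtain ⟨v, hv, hvP₁⟩ : ∃ v ∈ E, v ∉ P₁ := by
    by_contra hcon
    push Not at hcon
    exact hno P₁ hP₁ hcon
  have hv1 : v ≠ 1 := fun h1 => hvP₁ (h1 ▸ P₁.one_mem)
  have huv : u ≠ v := fun h1 => hvP₁ (h1 ▸ huP₁)
  obtain ⟨P₀, hP₀, hn₀, huP₀, hvP₀⟩ := exists_start h hl hE hu hv hu1 hv1 huv (hty u hu v hv hu1 hv1 huv)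
  -- a point with large intersection
  obtain ⟨P, ⟨hP, hPn⟩, hmax⟩ := Set.exists_max_image {P : Subgroup G | Γ.Pt P ∧ E ≤ normalizer (P : Set G)}
    (fun P => Nat.card (E ⊓ P : Subgroup G)) (Set.toFinite _) ⟨P₀, hP₀, hn₀⟩
  have hel : ∀ K : Subgroup G, K ≤ E → El K := fun K hK =>
    ⟨fun a ha => hl.el.sq a (hK ha), fun a ha b hb => hl.el.comm a (hK ha) b (hK hb)⟩
  have h4 : 4 ≤ Nat.card (E ⊓ P : Subgroup G) :=
    (four_le h (hel _ inf_le_left) (K := E ⊓ P₀) ⟨hu, huP₀⟩ ⟨hv, hvP₀⟩ hu1 hv1 huv).trans (hmax P₀ ⟨hP₀, hn₀⟩)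
  -- two different elements in `E ⊓ P`
  obtain ⟨a, ha, ha1⟩ : ∃ a ∈ E ⊓ P, a ≠ 1 := by
    by_contra hcon
    push Not at hcon
    rw [(Subgroup.eq_bot_iff_forall (E ⊓ P)).2 hcon, Subgroup.card_bot] at h4
    omega
  obtain ⟨b, hb, hb1, hab⟩ : ∃ b ∈ E ⊓ P, b ≠ 1 ∧ a ≠ b := by
    by_contra hcon
    push Not at hcon
    have h5 : Nat.card (E ⊓ P : Subgroup G) ≤ 2 := by
      let f : (E ⊓ P : Subgroup G) → Fin 2 := fun x => if (x : G) = 1 then 0 else 1
      have hf : Function.Injective f := by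
        intro x y hxy
        by_cases hx : (x : G) = 1 <;> by_cases hy : (y : G) = 1
        · exact Subtype.ext (hx.trans hy.symm)
        · have h6 : f x = 0 := if_pos hx
          have h7 : f y = 1 := if_neg hy
          rw [h6, h7] at hxy
          exact absurd hxy (by decide)
        · have h6 : f x = 1 := if_neg hx
          have h7 : f y = 0 := if_pos hy
          rw [h6, h7] at hxy
          exact absurd hxy (by decide)
        · exact Subtype.ext ((hcon x x.2 hx).symm.trans (hcon y y.2 hy))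
      have h6 := Nat.card_le_card_of_injective f hf
      rwa [Nat.card_fin] at h6
    omega
  -- kind A
  have hKA : ∀ w ∈ E, w ∉ P → KA Γ P w := by
    intro w hw hwP
    rcases h.f9.kind P w hP (act h hl hE hPn hw hwP) with hk | hk
    · exact hk
    · exfalso
      obtain ⟨x, -, hxu, -⟩ := hk.ex
      have haw : a ≠ w := fun h1 => hwP (h1 ▸ ha.2)
      have hbw : b ≠ w := fun h1 => hwP (h1 ▸ hb.2)
      have hw1 : w ≠ 1 := fun h1 => hwP (h1 ▸ P.one_mem)
      have h1 := hxu a ⟨mem_Fs h hl hE ha.1 ha.2 hw hwP, ha1, hty a ha.1 w hw ha1 hw1 haw⟩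
      have h2 := hxu b ⟨mem_Fs h hl hE hb.1 hb.2 hw hwP, hb1, hty b hb.1 w hw hb1 hw1 hbw⟩
      exact hab (h1.trans h2.symm)
  obtain ⟨w, hw, hwP⟩ : ∃ w ∈ E, w ∉ P := by
    by_contra hcon
    push Not at hcon
    exact hno P hP hcon
  have hw1 : w ≠ 1 := fun h1 => hwP (h1 ▸ P.one_mem)
  -- the intersection has order at least 8
  have h8 : 8 ≤ Nat.card (E ⊓ P : Subgroup G) := by
    obtain ⟨P', hP', haP', hbP', hwP'⟩ := (hKA w hw hwP).pt a (mem_Fs h hl hE ha.1 ha.2 hw hwP) b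
      (mem_Fs h hl hE hb.1 hb.2 hw hwP)
    have huniq : ∀ P'', Γ.Pt P'' → a ∈ P'' → b ∈ P'' → w ∈ P'' → P'' = P' := by
      intro P'' hP'' h1 h2 h3
      by_contra hne
      have h4 := line_of_two h hP'' hP' hne ha1 hb1 hab h1 haP' h2 hbP'
      have h5 := h.f6.le _ P h4 hP a b ha1 hb1 hab ⟨h1, haP'⟩ ⟨h2, hbP'⟩ ha.2 hb.2
      exact hwP (h5 ⟨h3, hwP'⟩)
    have hn' : E ≤ normalizer (P' : Set G) := by
      intro e he
      exact mem_normalizer_of_cj (huniq _ (f1.Pt_conj e P' hP') (mem_cj_of_comm haP' (hl.el.comm e he a ha.1))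
        (mem_cj_of_comm hbP' (hl.el.comm e he b hb.1)) (mem_cj_of_comm hwP' (hl.el.comm e he w hw)))
    refine le_trans ?_ (hmax P' ⟨hP', hn'⟩)
    set K : Subgroup G := E ⊓ P' with hK
    have h5 : 4 ≤ Nat.card (K ⊓ P : Subgroup G) :=
      four_le h (hel _ (inf_le_left.trans inf_le_left)) ⟨⟨ha.1, haP'⟩, ha.2⟩ ⟨⟨hb.1, hbP'⟩, hb.2⟩ ha1 hb1 hab
    have h6 := Subgroup.card_subgroup_dvd_card ((K ⊓ P).subgroupOf K)
    rw [Nat.card_congr (Subgroup.subgroupOfEquivOfLe (inf_le_left : K ⊓ P ≤ K)).toEquiv] at h6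
    obtain ⟨c, hc⟩ := h6
    have hc1 : c ≠ 1 := by
      rintro rfl
      rw [mul_one] at hc
      have h7 : K ⊓ P = K := Subgroup.eq_of_le_of_card_ge inf_le_left (by rw [hc])
      have h8 : w ∈ K ⊓ P := by
        rw [h7]
        exact ⟨hw, hwP'⟩
      exact hwP h8.2
    have hc0 : c ≠ 0 := by
      rintro rfl
      rw [mul_zero] at hc
      exact Nat.card_pos.ne' hc
    have hc2 : 2 ≤ c := by omega
    show 8 ≤ Nat.card K
    rw [hc]
    calc 8 = 4 * 2 := by norm_num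
      _ ≤ Nat.card (K ⊓ P : Subgroup G) * c := Nat.mul_le_mul h5 hc2
  -- `E ⊓ P` is `F_w` for all `w`
  have hFs : ∀ w ∈ E, w ∉ P → ((E ⊓ P : Subgroup G) : Set G) = Fs Γ P w := by
    intro w hw hwP
    refine Set.eq_of_subset_of_ncard_le (fun x hx => mem_Fs h hl hE hx.1 hx.2 hw hwP) ?_ (Set.toFinite _)
    rw [(hKA w hw hwP).card]
    exact h8
  have hWs : ∀ x, x ∈ Ws Γ P w ↔ x ∈ E := by
    intro x
    have hmem : ∀ y, y ∈ Fs Γ P w ↔ y ∈ E ⊓ P := by
      intro y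
      rw [← hFs w hw hwP]
      rfl
    constructor
    · rintro (h1 | h1)
      · exact ((hmem x).1 h1).1
      · have h2 := ((hmem _).1 h1).1
        have h3 : x = w⁻¹ * (w * x) := by group
        rw [h3]
        exact E.mul_mem (E.inv_mem hw) h2
    · intro hx
      by_cases hxP : x ∈ P
      · exact Or.inl ((hmem x).2 ⟨hx, hxP⟩)
      · right
        have h1 := h.f9.same P w x hP (hKA w hw hwP) (hKA x hx hxP) ((hFs w hw hwP).symm.trans (hFs x hx hxP))
        rw [El.inv_eq hl.el hw] at h1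
        exact (hmem _).2 ⟨E.mul_mem hw hx, h1⟩
  obtain ⟨X, hX, hXn, -⟩ := h.f12 P w hP (hKA w hw hwP)
  refine Or.inr (Or.inr (Or.inr ⟨X, hX, fun m hm => hXn m fun x hx => ?_⟩))
  rw [hWs] at hx ⊢
  exact conj_mem hl.normE hm hx

end

/-- **Case A.** -/
theorem caseA [Finite G] (Γ : Geom G) (h : Facts Γ) (_hLL : LL Γ) (hPT : PT Γ) : CaseA Γ := by
  intro M Q E hl hE
  have f1 := h.f1
  by_cases hno : ∃ P, Γ.Pt P ∧ E ≤ P
  · obtain ⟨P, hP, hEP⟩ := hno
    refine hPT M {P | Γ.Pt P ∧ E ≤ P} ?_ (fun P hP => hP.1) ⟨P, hP, hEP⟩ ?_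
    · intro m hm P' hP'
      refine ⟨f1.Pt_conj m P' hP'.1, ?_⟩
      rw [← cj_of_mem_normalizer (hl.normE hm)]
      exact Subgroup.map_mono hP'.2
    · intro h1
      apply hl.E_ne
      rw [eq_bot_iff, ← h1]
      exact le_sInf fun P' hP' => hP'.2
  · push Not at hno
    by_cases hty : ∀ u ∈ E, ∀ v ∈ E, u ≠ 1 → v ≠ 1 → u ≠ v → TyA Γ u v
    · exact caseA2 h hl hE hno hty
    · push Not at hty
      obtain ⟨u, hu, v, hv, hu1, hv1, huv, hn⟩ := hty
      exact caseA1 h hl hE hno hu hv hu1 hv1 huv hn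

end Cfsg.Agent.H546.JM
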