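import Cfsg.Agent.H860.JM.Basic
import Cfsg.Agent.H821.J4MaxD
import Cfsg.Agent.H866.J4OddEnd
import Cfsg.Agent.H859.CentC
import Cfsg.Agent.S5566
import Cfsg.Agent.S5567
import Cfsg.Agent.S5568
import Cfsg.Agent.S5570
import Cfsg.Agent.S5572
import Cfsg.Agent.S5573
import Cfsg.Agent.S5574
import Cfsg.Agent.S5575
import Cfsg.Agent.S5577
import Cfsg.Agent.S0242

/-!
# The eight local maximal subgroups of `Spor.J4` (helper546, for S5580)

* `isCoatom_cent_s`, `isCoatom_NEJ`, `isCoatom_NX`, `isCoatom_NL`, `isCoatom_N11`, ... ;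
* `good_conj` : a maximal subgroup `K` with `Good geo K` is conjugate to one of the first four;
* `reps8` : the package.
-/

set_option autoImplicit false
set_option linter.unusedSectionVars false

open Cfsg

namespace Cfsg.Agent.H546.JM

open Cfsg.Agent.J4.Invol (EJ s d)
open Cfsg.Agent.H860.JM
open Cfsg.Agent.H858 Cfsg.Agent.H858.VK Cfsg.Agent.J4.Pres Cfsg.Agent.J4.M24Hom
open Cfsg.Agent.H858.Loc5 Cfsg.Agent.H858.Norm57 Cfsg.Agent.H858.LGrp Cfsg.Agent.H858.NormL Cfsg.Agent.H858.MLoc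

/-- the group `Spor.J4` -/
local notation "𝒢" => Cfsg.Spor.J4

/-! ### Generalities -/

theorem isCoatom_cj {G : Type*} [Group G] (g : G) {M : Subgroup G} (hM : IsCoatom M) : IsCoatom (cj g M) :=
  (OrderIso.isCoatom_iff (MulEquiv.mapSubgroup (MulAut.conj g)) M).2 hM

theorem cent_cj {G : Type*} [Group G] (g a : G) :
    Subgroup.centralizer ({g * a * g⁻¹} : Set G) = cj g (Subgroup.centralizer ({a} : Set G)) := by
  ext x
  rw [mem_cj, Subgroup.mem_centralizer_singleton_iff, Subgroup.mem_centralizer_singleton_iff]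
  constructor
  · intro h
    calc g⁻¹ * x * g * a = g⁻¹ * (x * (g * a * g⁻¹)) * g := by group
      _ = g⁻¹ * (g * a * g⁻¹ * x) * g := by rw [h]
      _ = a * (g⁻¹ * x * g) := by group
  · intro h
    calc x * (g * a * g⁻¹) = g * (g⁻¹ * x * g * a) * g⁻¹ := by group
      _ = g * (a * (g⁻¹ * x * g)) * g⁻¹ := by rw [h]
      _ = g * a * g⁻¹ * x := by group

/-- a maximal subgroup below a maximal subgroup -/
theorem eq_of_coatom {G : Type*} [Group G] {K M : Subgroup G} (hK : IsCoatom K) (hM : IsCoatom M) (h : K ≤ M) : K = M := by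
  by_contra hne
  exact hM.1 (hK.2 M (lt_of_le_of_ne h hne))

/-- the normalizers of Sylow subgroups are conjugate -/
theorem sylow_cj {G : Type*} [Group G] [Finite G] {p : ℕ} [Fact p.Prime] (U U' : Sylow p G) :
    ∃ g : G, Subgroup.normalizer ((U' : Subgroup G) : Set G) = cj g (Subgroup.normalizer ((U : Subgroup G) : Set G)) := by
  obtain ⟨g, hg⟩ := MulAction.exists_smul_eq G U U'
  refine ⟨g, ?_⟩
  rw [← normalizer_cj, ← hg]
  rfl

theorem card_mul_relIndex {G : Type*} [Group G] [Finite G] {H K : Subgroup G} (h : H ≤ K) :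
    Nat.card H * H.relIndex K = Nat.card K := by
  rw [Subgroup.relIndex, ← Nat.card_congr (Subgroup.subgroupOfEquivOfLe h).toEquiv]
  exact Subgroup.card_mul_index _

/-- `|K H| |K ∩ H| = |K| |H|` -/
theorem card_sup_mul {G : Type*} [Group G] [Finite G] {K H : Subgroup G}
    (h : H ≤ Subgroup.normalizer (K : Set G)) :
    Nat.card (K ⊔ H : Subgroup G) * Nat.card (K ⊓ H : Subgroup G) = Nat.card K * Nat.card H := by
  have hKn : (K.subgroupOf (K ⊔ H)).Normal :=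
    Subgroup.normal_subgroupOf_of_le_normalizer (sup_le Subgroup.le_normalizer h)
  have h1 := Subgroup.relIndex_sup_left (H.subgroupOf (K ⊔ H)) (K.subgroupOf (K ⊔ H))
  rw [← Subgroup.subgroupOf_sup le_sup_left le_sup_right, Subgroup.subgroupOf_self,
    Subgroup.relIndex_subgroupOf le_sup_right, Subgroup.relIndex_top_right] at h1
  have h2 : Nat.card K * K.relIndex H = Nat.card (K ⊔ H : Subgroup G) := by
    rw [← h1]
    exact card_mul_relIndex le_sup_left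
  have h3 : Nat.card (K ⊓ H : Subgroup G) * K.relIndex H = Nat.card H := by
    rw [← Subgroup.inf_relIndex_right K H]
    exact card_mul_relIndex inf_le_right
  calc _ = Nat.card (K ⊔ H : Subgroup G) * Nat.card (K ⊓ H : Subgroup G) := rfl
    _ = Nat.card K * (Nat.card (K ⊓ H : Subgroup G) * K.relIndex H) := by rw [← h2]; ring
    _ = _ := by rw [h3]

theorem card_SL : Nat.card (Matrix.SpecialLinearGroup (Fin 5) (ZMod 2)) = 9999360 := by
  have h := Cfsg.Agent.S0242.result (F := ZMod 2) (q := 2) (ZMod.card 2) 5 (by norm_num)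
  rw [Fin.prod_univ_five] at h
  have e : ((2 : ℕ) ^ 5 - 2 ^ ((0 : Fin 5) : ℕ)) * (2 ^ 5 - 2 ^ ((1 : Fin 5) : ℕ)) *
      (2 ^ 5 - 2 ^ ((2 : Fin 5) : ℕ)) * (2 ^ 5 - 2 ^ ((3 : Fin 5) : ℕ)) *
      (2 ^ 5 - 2 ^ ((4 : Fin 5) : ℕ)) = 9999360 := by decide +kernel
  rw [e] at h
  omega

/-! ### The four 2-local subgroups -/

theorem J4_max (T : Cfsg.Agent.OrdDiv.OrderTable.{0}) (hS : Cfsg.Agent.H866.J4Min.Known.{0}) {z : 𝒢}
    (hJ : IsOfJankoFourTypeAt z) : IsCoatom (Subgroup.centralizer ({z} : Set 𝒢)) ∧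
    (∀ V : Subgroup 𝒢, IsElementaryAbelian 2 V → Nat.card V = 2 ^ 11 → IsCoatom (Subgroup.normalizer (V : Set 𝒢))) ∧
    (∀ A : Subgroup 𝒢, IsElementaryAbelian 2 A → Nat.card A = 2 ^ 10 → Subgroup.centralizer (A : Set 𝒢) = A →
      IsCoatom (Subgroup.normalizer (A : Set 𝒢))) ∧
    (∀ U : Sylow 11 𝒢, IsCoatom (Subgroup.normalizer ((U : Subgroup 𝒢) : Set 𝒢))) ∧
    (∀ U : Sylow 29 𝒢, IsCoatom (Subgroup.normalizer ((U : Subgroup 𝒢) : Set 𝒢))) ∧
    (∀ U : Sylow 37 𝒢, IsCoatom (Subgroup.normalizer ((U : Subgroup 𝒢) : Set 𝒢))) ∧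
    (∀ U : Sylow 43 𝒢, IsCoatom (Subgroup.normalizer ((U : Subgroup 𝒢) : Set 𝒢))) := by
  have := simple_J
  have := finite_J
  have hcG := Cfsg.Agent.H821.J4MaxD.card_G hJ
  have F := Cfsg.Agent.H821.J4MaxB.facts hJ
  refine ⟨Cfsg.Agent.H821.J4MaxB.case_z T hS hcG F, fun V hV hVc => ?_, fun A hA hAc hAA => ?_, ?_⟩
  · exact Cfsg.Agent.H821.J4MaxA.case_V T hS hcG hV hVc (Cfsg.Agent.S5567.result nonab isJ V hV hVc)
      (Cfsg.Agent.S5568.result nonab z hJ V hV hVc)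
  · exact Cfsg.Agent.H821.J4MaxA.case_A T hS hcG hA hAc hAA ((Cfsg.Agent.S5570.result nonab isJ).2.2 A hA hAc hAA)
  · refine Cfsg.Agent.H866.J4OddEnd.odd_end T hS hcG (z := z) (by rw [F.card_cent]; norm_num)
      (Cfsg.Agent.S5566.result nonab isJ)
      (fun S hS7 hSz => (Cfsg.Agent.S5573.result nonab z hJ S hS7 hSz).2.2) (fun U => ?_) ?_ ?_ ?_ ?_
      (Cfsg.Agent.H859.CentC.centralizer_le isJ) (Cfsg.Agent.H859.CentC.normalizer_center_le isJ)
    · obtain ⟨h1, h2, -, h3, h4⟩ := Cfsg.Agent.S5575.result nonab isJ U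
      exact ⟨h1, h2, h3, h4⟩
    · exact fun U => ((Cfsg.Agent.S5577.result nonab isJ).1 U).2
    · exact (Cfsg.Agent.S5577.result nonab isJ).2.1
    · exact (Cfsg.Agent.S5577.result nonab isJ).2.2.2.1
    · exact (Cfsg.Agent.S5577.result nonab isJ).2.2.2.2

theorem card_cent_s : Nat.card (Subgroup.centralizer ({s} : Set 𝒢)) = 21799895040 := by
  have := simple_J
  have := finite_J
  obtain ⟨z, hz⟩ := isJ
  obtain ⟨P, hP⟩ := hz
  obtain ⟨Q, N, M, H, -, -⟩ := Cfsg.Agent.H856.ToHyp.exists_hyp hP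
  exact CentS.card_cent_s H

section TS

variable (T : Cfsg.Agent.OrdDiv.OrderTable.{0}) (hS : Cfsg.Agent.H866.J4Min.Known.{0})

include T hS

theorem isCoatom_cent_s : IsCoatom (Subgroup.centralizer ({s} : Set 𝒢)) := by
  have := simple_J
  have := finite_J
  obtain ⟨z, t, hz, hsz, -⟩ := classes
  obtain ⟨g, hg⟩ := isConj_iff.1 hsz.symm
  rw [← hg, cent_cj]
  exact isCoatom_cj g (J4_max T hS hz).1

theorem isCoatom_NEJ : IsCoatom (Subgroup.normalizer (EJ : Set 𝒢)) := by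
  have := simple_J
  have := finite_J
  obtain ⟨z, hz⟩ := isJ
  exact (J4_max T hS hz).2.1 EJ elem_EJ card_EJ

theorem isCoatom_NX {X : Subgroup 𝒢} (hX : geo.Xc X) : IsCoatom (Subgroup.normalizer (X : Set 𝒢)) := by
  have := simple_J
  have := finite_J
  obtain ⟨z, hz⟩ := isJ
  exact (J4_max T hS hz).2.2.1 X hX.1 hX.2.1 hX.2.2

end TS

theorem exists_X : ∃ X : Subgroup 𝒢, geo.Xc X := by
  have := simple_J
  have := finite_J
  obtain ⟨X, h1, h2, h3⟩ := (Cfsg.Agent.S5570.result nonab isJ).1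
  exact ⟨X, h1, h2, h3⟩

theorem X_conj {X X' : Subgroup 𝒢} (h : geo.Xc X) (h' : geo.Xc X') : ∃ g, X' = cj g X := by
  have := simple_J
  have := finite_J
  exact (Cfsg.Agent.S5570.result nonab isJ).2.1 X X' h.1 h.2.1 h.2.2 h'.1 h'.2.1 h'.2.2

theorem card_NX {X : Subgroup 𝒢} (hX : geo.Xc X) : Nat.card (Subgroup.normalizer (X : Set 𝒢)) = 10239344640 := by
  have := simple_J
  have := finite_J
  obtain ⟨⟨B, hB, hi, hs, ⟨e⟩⟩, -⟩ := (Cfsg.Agent.S5570.result nonab isJ).2.2 X hX.1 hX.2.1 hX.2.2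
  have h1 := card_sup_mul (K := X) (H := B) hB
  have h2 : Nat.card B = 9999360 := (Nat.card_congr e.toEquiv).trans card_SL
  have h3 : Nat.card X = 2 ^ 10 := hX.2.1
  rw [sup_comm, hs, inf_comm, hi, Subgroup.card_bot, mul_one, h2, h3] at h1
  rw [h1]
  norm_num

theorem NZ_eq : Subgroup.normalizer (L : Set 𝒢) = Subgroup.normalizer (Loc7.Z : Set 𝒢) := (W_eq card_cent_s).2

theorem card_J : Nat.card 𝒢 = 86775571046077562880 := by
  have := simple_J
  have := finite_J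
  obtain ⟨z, hz⟩ := isJ
  exact Cfsg.Agent.H858.Trans.card_G hz

section TS2

variable (T : Cfsg.Agent.OrdDiv.OrderTable.{0}) (hS : Cfsg.Agent.H866.J4Min.Known.{0})

include T hS

theorem isCoatom_NL : IsCoatom (Subgroup.normalizer (L : Set 𝒢)) := by
  have := simple_J
  have := finite_J
  have hf5 : Fact (Nat.Prime 5) := ⟨by norm_num⟩
  have hf7 : Fact (Nat.Prime 7) := ⟨by norm_num⟩
  have h5 : ¬ 5 * 5 ∣ Nat.card 𝒢 := by rw [card_J]; norm_num
  have h7 : ¬ 7 * 7 ∣ Nat.card 𝒢 := by rw [card_J]; norm_num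
  obtain ⟨z, hz⟩ := isJ
  refine Cfsg.Agent.H821.J4MaxD.part_L T hS hz
    (fun Q hQ hQz => (Cfsg.Agent.S5572.result nonab z hz Q hQ hQz).2.1)
    (fun S hS7 hSz => (Cfsg.Agent.S5573.result nonab z hz S hS7 hSz).2.2) isSpecial_L card_L card_center
    (equiv_quot card_cent_s) ⟨(Cfsg.Agent.H858.NormC.isPGroup_of_card card_F5).toSylow
      (Cfsg.Agent.H858.NormC.not_dvd_index card_F5 h5), NF5_le.trans W_le⟩
    ⟨(Cfsg.Agent.H858.NormC.isPGroup_of_card card_S7).toSylow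
      (Cfsg.Agent.H858.NormC.not_dvd_index card_S7 h7), NS7_le.trans W_le⟩

/-- a maximal subgroup `K` with `Good geo K` -/
theorem good_conj {X : Subgroup 𝒢} (hX : geo.Xc X) {K : Subgroup 𝒢} (hK : IsCoatom K) (hg : Good geo K) :
    (∃ g, K = cj g (Subgroup.centralizer ({s} : Set 𝒢))) ∨ (∃ g, K = cj g (Subgroup.normalizer (EJ : Set 𝒢))) ∨
      (∃ g, K = cj g (Subgroup.normalizer (X : Set 𝒢))) ∨ (∃ g, K = cj g (Subgroup.normalizer (L : Set 𝒢))) := by
  rcases hg with ⟨z, hz, h⟩ | ⟨P, ⟨g, rfl⟩, h⟩ | ⟨D, ⟨g, rfl⟩, h⟩ | ⟨Y, hY, h⟩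
  · obtain ⟨g, rfl⟩ := isConj_iff.1 hz
    rw [cent_cj] at h
    exact Or.inl ⟨g, eq_of_coatom hK (isCoatom_cj g (isCoatom_cent_s T hS)) h⟩
  · rw [normalizer_cj] at h
    exact Or.inr (Or.inl ⟨g, eq_of_coatom hK (isCoatom_cj g (isCoatom_NEJ T hS)) h⟩)
  · rw [normalizer_cj, ← NZ_eq] at h
    exact Or.inr (Or.inr (Or.inr ⟨g, eq_of_coatom hK (isCoatom_cj g (isCoatom_NL T hS)) h⟩))
  · obtain ⟨g, rfl⟩ := X_conj hX hY
    rw [normalizer_cj] at h
    exact Or.inr (Or.inr (Or.inl ⟨g, eq_of_coatom hK (isCoatom_cj g (isCoatom_NX T hS hX)) h⟩))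

/-- **The eight local maximal subgroups.** -/
theorem reps8 : ∃ M : Fin 8 → Subgroup 𝒢, (∀ i, IsCoatom (M i)) ∧
    (∀ i, Nat.card (M i) = ![21799895040, 501397585920, 10239344640, 660602880, 319440, 812, 444, 602] i) ∧
    (∀ K, IsCoatom K → Good geo K → ∃ i g, K = cj g (M i)) ∧
    ∀ p ∈ [11, 29, 37, 43], ∀ [Fact p.Prime], ∀ U : Sylow p 𝒢,
      ∃ i g, Subgroup.normalizer ((U : Subgroup 𝒢) : Set 𝒢) = cj g (M i) := by
  have := simple_J
  have := finite_J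
  have f11 : Fact (Nat.Prime 11) := ⟨by norm_num⟩
  have f29 : Fact (Nat.Prime 29) := ⟨by norm_num⟩
  have f37 : Fact (Nat.Prime 37) := ⟨by norm_num⟩
  have f43 : Fact (Nat.Prime 43) := ⟨by norm_num⟩
  obtain ⟨z, hz⟩ := isJ
  obtain ⟨-, -, -, c11, c29, c37, c43⟩ := J4_max T hS hz
  obtain ⟨-, o29, -, o37, o43⟩ := Cfsg.Agent.S5577.result nonab isJ
  obtain ⟨X, hX⟩ := exists_X
  obtain ⟨U11⟩ : Nonempty (Sylow 11 𝒢) := inferInstance
  obtain ⟨U29⟩ : Nonempty (Sylow 29 𝒢) := inferInstance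
  obtain ⟨U37⟩ : Nonempty (Sylow 37 𝒢) := inferInstance
  obtain ⟨U43⟩ : Nonempty (Sylow 43 𝒢) := inferInstance
  have o11 := (Cfsg.Agent.S5575.result nonab isJ U11).2.2.2.1
  let N : Fin 8 → Subgroup 𝒢 := ![Subgroup.centralizer ({s} : Set 𝒢), Subgroup.normalizer (EJ : Set 𝒢),
    Subgroup.normalizer (X : Set 𝒢), Subgroup.normalizer (L : Set 𝒢),
    Subgroup.normalizer ((U11 : Subgroup 𝒢) : Set 𝒢), Subgroup.normalizer ((U29 : Subgroup 𝒢) : Set 𝒢),
    Subgroup.normalizer ((U37 : Subgroup 𝒢) : Set 𝒢), Subgroup.normalizer ((U43 : Subgroup 𝒢) : Set 𝒢)]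
  refine ⟨N, ?_, ?_, ?_, ?_⟩
  · intro i
    fin_cases i
    · exact isCoatom_cent_s T hS
    · exact isCoatom_NEJ T hS
    · exact isCoatom_NX T hS hX
    · exact isCoatom_NL T hS
    · exact c11 U11
    · exact c29 U29
    · exact c37 U37
    · exact c43 U43
  · intro i
    fin_cases i
    · exact card_cent_s
    · exact card_NEJ
    · exact card_NX hX
    · exact card_NL card_cent_s
    · exact o11
    · exact (o29 U29).2
    · exact (o37 U37).2
    · exact (o43 U43).2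
  · intro K hK hg
    rcases good_conj T hS hX hK hg with ⟨g, h⟩ | ⟨g, h⟩ | ⟨g, h⟩ | ⟨g, h⟩
    · exact ⟨0, g, h⟩
    · exact ⟨1, g, h⟩
    · exact ⟨2, g, h⟩
    · exact ⟨3, g, h⟩
  · intro p hp _ U
    simp only [List.mem_cons, List.not_mem_nil, or_false] at hp
    rcases hp with rfl | rfl | rfl | rfl
    · obtain ⟨g, h⟩ := sylow_cj U11 U
      exact ⟨4, g, h⟩
    · obtain ⟨g, h⟩ := sylow_cj U29 U
      exact ⟨5, g, h⟩
    · obtain ⟨g, h⟩ := sylow_cj U37 U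
      exact ⟨6, g, h⟩
    · obtain ⟨g, h⟩ := sylow_cj U43 U
      exact ⟨7, g, h⟩

end TS2

end Cfsg.Agent.H546.JM
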